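import Cfsg.Agent.Lib.SuzOv.Local
import Cfsg.Prelude.Def_Transfer
import Mathlib

/-!
# Elementary abelian TI-subgroups of the Suzuki group
-/

set_option autoImplicit false
set_option linter.unusedSimpArgs false
set_option linter.unusedVariables false

namespace Cfsg.Agent.Lib.SuzOv

open Matrix Cfsg
open scoped MatrixGroups Pointwise commutatorElement

variable {F : Type*} [Field F] {m : ℕ} [Fintype F] (S : SH F m)

include S

/-- Conjugation of central translations by Borel elements. -/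
lemma conj_borel0 (c d β : F) (C : Fˣ) :
    (tT S c d * tH S C) * tT S 0 β * (tT S c d * tH S C)⁻¹ = tT S 0 ((C : F) ^ (2 ^ (m + 1) + 1) * β) := by
  have hS := S.sc
  rw [conj_borel]
  simp [zero_pow hS.pos]

/-- The subfield of `2^n`-th power fixed elements has the expected number of elements. -/
lemma card_fixed {n : ℕ} (hn : 1 ≤ n) (hdvd : n ∣ 2 * m + 1) :
    Nat.card {b : F // b ^ (2 ^ n) = b} = 2 ^ n := by
  classical
  have hge : 1 ≤ 2 ^ n := Nat.one_le_two_pow
  let K := (powMonoidHom (2 ^ n - 1) : Fˣ →* Fˣ).ker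
  have hK : Nat.card K = 2 ^ n - 1 := by
    rw [IsCyclic.card_powMonoidHom_ker, Nat.card_eq_fintype_card, Fintype.card_units, S.hF,
      Nat.gcd_comm, Nat.pow_sub_one_gcd_pow_sub_one, Nat.gcd_eq_left hdvd]
  have hpow : ∀ A : Fˣ, A ∈ K → (A : F) ^ (2 ^ n) = A := by
    intro A hA
    have h1 : A ^ (2 ^ n - 1) = 1 := hA
    have h3 : (A : F) ^ (2 ^ n - 1) = 1 := by
      have := congrArg (fun z : Fˣ => (z : F)) h1
      simpa using this
    calc (A : F) ^ (2 ^ n) = (A : F) ^ (2 ^ n - 1) * (A : F) := by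
          rw [← pow_succ, Nat.sub_add_cancel hge]
      _ = (A : F) := by rw [h3, one_mul]
  let f : Option K → {b : F // b ^ (2 ^ n) = b} := fun o =>
    match o with
    | none => ⟨0, by simp⟩
    | some A => ⟨(A.1 : F), hpow A.1 A.2⟩
  have hf : Function.Bijective f := by
    constructor
    · rintro (_ | A) (_ | B) h
      · rfl
      · exact absurd (congrArg Subtype.val h).symm (Units.ne_zero _)
      · exact absurd (congrArg Subtype.val h) (Units.ne_zero _)
      · congr 1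
        exact Subtype.ext (Units.ext (congrArg Subtype.val h))
    · rintro ⟨b, hb⟩
      by_cases hb0 : b = 0
      · subst hb0
        exact ⟨none, rfl⟩
      · have h1 : b ^ (2 ^ n - 1) = 1 := by
          apply mul_right_cancel₀ hb0
          rw [← pow_succ, one_mul]
          rw [show 2 ^ n - 1 + 1 = 2 ^ n by omega]
          exact hb
        refine ⟨some ⟨Units.mk0 b hb0, ?_⟩, rfl⟩
        show (Units.mk0 b hb0) ^ (2 ^ n - 1) = 1
        apply Units.ext
        simpa using h1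
  rw [← Nat.card_congr (Equiv.ofBijective f hf), Finite.card_option, hK]
  omega

/-- The group attached to a set of central translation parameters. -/
def Zsub (n : ℕ) (hn : 1 ≤ n) : Subgroup ↥(Cfsg.Sz F m) where
  carrier := {g | ∃ b : F, b ^ (2 ^ n) = b ∧ g = tT S 0 b}
  one_mem' := ⟨0, by simp, (tT_zero S).symm⟩
  mul_mem' := by
    rintro _ _ ⟨a, ha, rfl⟩ ⟨b, hb, rfl⟩
    refine ⟨a + b, ?_, ?_⟩
    · haveI := S.charP
      haveI : Fact (Nat.Prime 2) := ⟨Nat.prime_two⟩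
      rw [add_pow_char_pow, ha, hb]
    · rw [tT_mul]
      simp [zero_pow S.sc.pos]
  inv_mem' := by
    rintro _ ⟨a, ha, rfl⟩
    refine ⟨a, ha, ?_⟩
    rw [tT_inv]
    simp [zero_pow S.sc.pos]

/-- Existence of TI-subgroups. -/
theorem exists_TI {n : ℕ} (hn : 1 ≤ n) (hdvd : n ∣ 2 * m + 1) :
    ∃ E : Subgroup ↥(Cfsg.Sz F m), Cfsg.IsElementaryAbelian 2 E ∧ Nat.card ↥E = 2 ^ n ∧
      ∀ x : ↥(Cfsg.Sz F m), E ⊓ E.map (MulAut.conj x).toMonoidHom ≠ ⊥ →
        x ∈ Subgroup.normalizer (E : Set ↥(Cfsg.Sz F m)) := by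
  classical
  have hS := S.sc
  have h2 := S.two
  refine ⟨Zsub S n hn, ⟨?_, ?_⟩, ?_, ?_⟩
  · refine ⟨⟨?_⟩⟩
    rintro ⟨_, a, ha, rfl⟩ ⟨_, b, hb, rfl⟩
    apply Subtype.ext
    show tT S 0 a * tT S 0 b = tT S 0 b * tT S 0 a
    rw [tT_mul, tT_mul]
    simp [zero_pow hS.pos, add_comm]
  · rintro _ ⟨a, ha, rfl⟩
    rw [sq, tT_sq]
    simp [zero_pow hS.pos, tT_zero S]
  · rw [← card_fixed S hn hdvd]
    apply Nat.card_congr
    refine (Equiv.ofBijective (fun b : {b : F // b ^ (2 ^ n) = b} => (⟨tT S 0 b.1, b.1, b.2, rfl⟩ : ↥(Zsub S n hn))) ⟨?_, ?_⟩).symm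
    · intro a b h
      exact Subtype.ext (tT_inj S (congrArg Subtype.val h)).2
    · rintro ⟨_, b, hb, rfl⟩
      exact ⟨⟨b, hb⟩, rfl⟩
  · intro x hx
    obtain ⟨g, hg, hg1⟩ := (Subgroup.bot_or_exists_ne_one _).resolve_left hx
    obtain ⟨⟨b, hb, rfl⟩, ⟨_, ⟨b', hb', rfl⟩, hconj⟩⟩ := Subgroup.mem_inf.1 hg
    have hconj' : x * tT S 0 b' * x⁻¹ = tT S 0 b := hconj
    have hb0 : b ≠ 0 := by
      rintro rfl
      exact hg1 (tT_zero S)
    have hb'0 : b' ≠ 0 := by
      rintro rfl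
      rw [tT_zero, mul_one, mul_inv_cancel] at hconj'
      exact hg1 hconj'.symm
    have hfix : x • pinf F = pinf F := by
      apply fix_T S (a := 0) (b := b) (smul_mem_ovoid S x (pinf_mem m)) (fun h => hb0 h.2)
      rw [← hconj', mul_smul, mul_smul, inv_smul_smul, tT_pinf]
    obtain ⟨c, d, C, rfl⟩ := mem_borel S x hfix
    rw [conj_borel0] at hconj'
    have hγ : (C : F) ^ (2 ^ (m + 1) + 1) * b' = b := (tT_inj S hconj').2
    set γ : F := (C : F) ^ (2 ^ (m + 1) + 1) with hγdef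
    have hγ0 : γ ≠ 0 := pow_ne_zero _ C.ne_zero
    have hγfix : γ ^ (2 ^ n) = γ := by
      apply mul_right_cancel₀ (pow_ne_zero (2 ^ n) hb'0)
      rw [← mul_pow, hγ, hb, hb']
      exact hγ.symm
    rw [Subgroup.mem_normalizer_iff]
    intro h
    constructor
    · rintro ⟨β, hβ, rfl⟩
      rw [conj_borel0]
      refine ⟨γ * β, ?_, rfl⟩
      rw [mul_pow, hγfix, hβ]
    · rintro ⟨β, hβ, hh⟩
      refine ⟨γ⁻¹ * β, ?_, ?_⟩
      · rw [mul_pow, inv_pow, hγfix, hβ]
      · have h3 := conj_borel0 S c d (γ⁻¹ * β) C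
        rw [← hγdef, ← mul_assoc, mul_inv_cancel₀ hγ0, one_mul, ← hh] at h3
        have h4 := mul_right_cancel h3
        exact (mul_left_cancel h4).symm

/-- Necessity of the divisibility. -/
theorem dvd_of_TI {n : ℕ} (hn : 2 ≤ n) (E : Subgroup ↥(Cfsg.Sz F m)) (hE : Cfsg.IsElementaryAbelian 2 E)
    (hcard : Nat.card ↥E = 2 ^ n)
    (hTI : ∀ x : ↥(Cfsg.Sz F m), E ⊓ E.map (MulAut.conj x).toMonoidHom ≠ ⊥ →
        x ∈ Subgroup.normalizer (E : Set ↥(Cfsg.Sz F m))) : n ∣ 2 * m + 1 := by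
  classical
  have hS := S.sc
  have h2 := S.two
  haveI : Fact (Nat.Prime 2) := ⟨Nat.prime_two⟩
  -- E lies in a conjugate of the translations
  have hp : IsPGroup 2 E := by
    intro g
    refine ⟨1, ?_⟩
    apply Subtype.ext
    simpa using hE.2 g.1 g.2
  obtain ⟨P, hP⟩ := hp.exists_le_sylow
  obtain ⟨k, hk⟩ := sylow_conj S P
  have hform : ∀ g ∈ E, ∃ b : F, g = k * tT S 0 b * k⁻¹ := by
    intro g hg
    obtain ⟨a, b, hab⟩ := (hk g).1 (hP hg)
    have h3 : (tT S a b) * (tT S a b) = 1 := by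
      rw [← hab]
      have h4 := hE.2 g hg
      calc k⁻¹ * g * k * (k⁻¹ * g * k) = k⁻¹ * (g ^ 2) * k := by
            rw [sq]; group
        _ = 1 := by rw [h4]; group
    rw [tT_sq, tT_eq_one_iff] at h3
    have ha : a = 0 := by
      rcases mul_eq_zero.1 h3.2 with h5 | h5
      · exact pow_eq_zero_iff hS.pos |>.1 h5
      · exact h5
    subst ha
    refine ⟨b, ?_⟩
    rw [← hab]
    group
  -- the parameter set
  let V : Set F := {b | k * tT S 0 b * k⁻¹ ∈ E}
  have hVcard : Nat.card V = 2 ^ n := by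
    rw [← hcard]
    apply Nat.card_congr
    refine Equiv.ofBijective (fun b : V => (⟨k * tT S 0 b.1 * k⁻¹, b.2⟩ : ↥E)) ⟨?_, ?_⟩
    · intro a b h
      have h3 : k * tT S 0 a.1 * k⁻¹ = k * tT S 0 b.1 * k⁻¹ := congrArg Subtype.val h
      have h4 := mul_left_cancel (mul_right_cancel h3)
      exact Subtype.ext (tT_inj S h4).2
    · rintro ⟨g, hg⟩
      obtain ⟨b, rfl⟩ := hform g hg
      exact ⟨⟨b, hg⟩, rfl⟩
  have hV0 : (0 : F) ∈ V := by
    show k * tT S 0 0 * k⁻¹ ∈ E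
    rw [tT_zero, mul_one, mul_inv_cancel]
    exact E.one_mem
  obtain ⟨v₀, hv₀, hv₀0⟩ : ∃ v ∈ V, v ≠ 0 := by
    by_contra hcon
    push_neg at hcon
    have h3 : Nat.card V = 1 := by
      rw [Nat.card_eq_one_iff_unique]
      exact ⟨⟨fun a b => Subtype.ext (by rw [hcon a.1 a.2, hcon b.1 b.2])⟩, ⟨⟨0, hV0⟩⟩⟩
    rw [hVcard] at h3
    have : 2 ^ 2 ≤ 2 ^ n := Nat.pow_le_pow_right (by norm_num) hn
    omega
  -- multiplication by ratios
  have hratio : ∀ v ∈ V, v ≠ 0 → ∀ β ∈ V, (v / v₀) * β ∈ V := by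
    intro v hv hv0 β hβ
    obtain ⟨C, hC⟩ := exists_pow_eq S (div_ne_zero hv0 hv₀0)
    have hC0 : C ≠ 0 := by
      rintro rfl
      rw [zero_pow hS.pos, zero_mul] at hC
      exact (div_ne_zero hv0 hv₀0) hC.symm
    let U := Units.mk0 C hC0
    have hU : (U : F) ^ (2 ^ (m + 1) + 1) = v / v₀ := by
      rw [pow_succ]
      exact hC
    let x := k * tH S U * k⁻¹
    have hconj : ∀ b : F, x * (k * tT S 0 b * k⁻¹) * x⁻¹ = k * tT S 0 ((v / v₀) * b) * k⁻¹ := by
      intro b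
      have e : tH S U * tT S 0 b * (tH S U)⁻¹ = tT S 0 ((v / v₀) * b) := by
        rw [tH_T_H, hU, mul_zero]
      calc x * (k * tT S 0 b * k⁻¹) * x⁻¹ = k * (tH S U * tT S 0 b * (tH S U)⁻¹) * k⁻¹ := by
            simp only [x]
            group
        _ = _ := by rw [e]
    have hmem : k * tT S 0 v * k⁻¹ ∈ E ⊓ E.map (MulAut.conj x).toMonoidHom := by
      refine Subgroup.mem_inf.2 ⟨hv, ⟨k * tT S 0 v₀ * k⁻¹, hv₀, ?_⟩⟩
      show x * (k * tT S 0 v₀ * k⁻¹) * x⁻¹ = _
      rw [hconj, div_mul_cancel₀ _ hv₀0]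
    have hnorm := hTI x (by
      intro h
      rw [h, Subgroup.mem_bot] at hmem
      have h3 : tT S 0 v = 1 := by
        have h4 : k * tT S 0 v = 1 * k := by
          rw [← hmem]
          group
        rw [one_mul] at h4
        exact mul_eq_left.1 h4
      exact hv0 ((tT_eq_one_iff S).1 h3).2)
    have h3 := (Subgroup.mem_normalizer_iff.1 hnorm (k * tT S 0 β * k⁻¹)).1 hβ
    rw [hconj] at h3
    exact h3
  -- the multiplicative group
  let Wm : Submonoid Fˣ :=
    { carrier := {A | (A : F) * v₀ ∈ V}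
      one_mem' := by
        show ((1 : Fˣ) : F) * v₀ ∈ V
        rw [Units.val_one, one_mul]
        exact hv₀
      mul_mem' := by
        intro A B hA hB
        have h3 := hratio _ hA (mul_ne_zero A.ne_zero hv₀0) _ hB
        have h4 : ((A : F) * v₀ / v₀) * ((B : F) * v₀) = ((A * B : Fˣ) : F) * v₀ := by
          rw [Units.val_mul]
          field_simp
        rwa [h4] at h3 }
  let W : Subgroup Fˣ :=
    { Wm with
      inv_mem' := by
        intro A hA
        have h3 : A⁻¹ = A ^ (orderOf A - 1) := by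
          apply inv_eq_of_mul_eq_one_right
          rw [← pow_succ', Nat.sub_add_cancel (orderOf_pos A), pow_orderOf_eq_one]
        show A⁻¹ ∈ Wm
        rw [h3]
        exact Wm.pow_mem hA _ }
  have hWV : Nat.card W + 1 = Nat.card V := by
    rw [← Finite.card_option]
    apply Nat.card_congr
    refine Equiv.ofBijective (fun o : Option W =>
      match o with
      | none => (⟨0, hV0⟩ : V)
      | some A => ⟨(A.1 : F) * v₀, A.2⟩) ⟨?_, ?_⟩
    · rintro (_ | A) (_ | B) h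
      · rfl
      · exact absurd (congrArg Subtype.val h).symm (mul_ne_zero (Units.ne_zero _) hv₀0)
      · exact absurd (congrArg Subtype.val h) (mul_ne_zero (Units.ne_zero _) hv₀0)
      · congr 1
        exact Subtype.ext (Units.ext (mul_right_cancel₀ hv₀0 (congrArg Subtype.val h)))
    · rintro ⟨v, hv⟩
      by_cases hv0 : v = 0
      · subst hv0
        exact ⟨none, rfl⟩
      · have h3 : (v / v₀) * v₀ = v := div_mul_cancel₀ _ hv₀0
        refine ⟨some ⟨Units.mk0 (v / v₀) (div_ne_zero hv0 hv₀0), ?_⟩, ?_⟩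
        · show (v / v₀) * v₀ ∈ V
          rw [h3]
          exact hv
        · exact Subtype.ext h3
  have hW : Nat.card W = 2 ^ n - 1 := by
    rw [hVcard] at hWV
    omega
  have hdvd : 2 ^ n - 1 ∣ 2 ^ (2 * m + 1) - 1 := by
    have h3 := Subgroup.card_subgroup_dvd_card W
    rw [hW, Nat.card_eq_fintype_card, Fintype.card_units, S.hF] at h3
    exact h3
  have hgcd := Nat.pow_sub_one_gcd_pow_sub_one 2 n (2 * m + 1)
  rw [Nat.gcd_eq_left hdvd] at hgcd
  have h4 : 2 ^ n = 2 ^ Nat.gcd n (2 * m + 1) := by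
    have h5 : 1 ≤ 2 ^ n := Nat.one_le_two_pow
    have h6 : 1 ≤ 2 ^ Nat.gcd n (2 * m + 1) := Nat.one_le_two_pow
    omega
  have h5 := Nat.pow_right_injective (le_refl 2) h4
  rw [h5]
  exact Nat.gcd_dvd_right _ _

end Cfsg.Agent.Lib.SuzOv
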